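import Cfsg.Agent.H8.T.HeCc0
import Cfsg.Agent.H8.CosetGlue
import Cfsg.Agent.H8.T.HetO

set_option Elab.async false
set_option autoImplicit false
set_option linter.all false
set_option maxRecDepth 100000
set_option maxHeartbeats 400000

namespace Cfsg.Agent.H8.HeC
open Cfsg.Agent.H8.Het (T0 T1 T2 T3 T4 T5 T6)

theorem pk0 : allR (ckPerm (nat_lit 2058) X0 X1) (nat_lit 0) (nat_lit 2058) = true := by
  apply allR_of_forall
  intro i hi
  have hi : i < 2058 := hi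
  rcases Nat.lt_or_ge i 1029 with h0 | h0
  · exact allR_spec _ (0 : ℕ) (1029 : ℕ) pk0_0 i (by omega) (by omega)
  exact allR_spec _ (1029 : ℕ) (1029 : ℕ) pk0_1 i (by omega) (by omega)
theorem pk1 : allR (ckPerm (nat_lit 2058) X1 X0) (nat_lit 0) (nat_lit 2058) = true := by
  apply allR_of_forall
  intro i hi
  have hi : i < 2058 := hi
  rcases Nat.lt_or_ge i 1029 with h0 | h0
  · exact allR_spec _ (0 : ℕ) (1029 : ℕ) pk1_0 i (by omega) (by omega)
  exact allR_spec _ (1029 : ℕ) (1029 : ℕ) pk1_1 i (by omega) (by omega)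
theorem pk2 : allR (ckPerm (nat_lit 2058) X2 X3) (nat_lit 0) (nat_lit 2058) = true := by
  apply allR_of_forall
  intro i hi
  have hi : i < 2058 := hi
  rcases Nat.lt_or_ge i 1029 with h0 | h0
  · exact allR_spec _ (0 : ℕ) (1029 : ℕ) pk2_0 i (by omega) (by omega)
  exact allR_spec _ (1029 : ℕ) (1029 : ℕ) pk2_1 i (by omega) (by omega)
theorem pk3 : allR (ckPerm (nat_lit 2058) X3 X2) (nat_lit 0) (nat_lit 2058) = true := by
  apply allR_of_forall
  intro i hi
  have hi : i < 2058 := hi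
  rcases Nat.lt_or_ge i 1029 with h0 | h0
  · exact allR_spec _ (0 : ℕ) (1029 : ℕ) pk3_0 i (by omega) (by omega)
  exact allR_spec _ (1029 : ℕ) (1029 : ℕ) pk3_1 i (by omega) (by omega)
theorem pk4 : allR (ckPerm (nat_lit 2058) X4 X5) (nat_lit 0) (nat_lit 2058) = true := by
  apply allR_of_forall
  intro i hi
  have hi : i < 2058 := hi
  rcases Nat.lt_or_ge i 1029 with h0 | h0
  · exact allR_spec _ (0 : ℕ) (1029 : ℕ) pk4_0 i (by omega) (by omega)
  exact allR_spec _ (1029 : ℕ) (1029 : ℕ) pk4_1 i (by omega) (by omega)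
theorem pk5 : allR (ckPerm (nat_lit 2058) X5 X4) (nat_lit 0) (nat_lit 2058) = true := by
  apply allR_of_forall
  intro i hi
  have hi : i < 2058 := hi
  rcases Nat.lt_or_ge i 1029 with h0 | h0
  · exact allR_spec _ (0 : ℕ) (1029 : ℕ) pk5_0 i (by omega) (by omega)
  exact allR_spec _ (1029 : ℕ) (1029 : ℕ) pk5_1 i (by omega) (by omega)
theorem pk6 : allR (ckPerm (nat_lit 2058) X6 X7) (nat_lit 0) (nat_lit 2058) = true := by
  apply allR_of_forall
  intro i hi
  have hi : i < 2058 := hi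
  rcases Nat.lt_or_ge i 1029 with h0 | h0
  · exact allR_spec _ (0 : ℕ) (1029 : ℕ) pk6_0 i (by omega) (by omega)
  exact allR_spec _ (1029 : ℕ) (1029 : ℕ) pk6_1 i (by omega) (by omega)
theorem pk7 : allR (ckPerm (nat_lit 2058) X7 X6) (nat_lit 0) (nat_lit 2058) = true := by
  apply allR_of_forall
  intro i hi
  have hi : i < 2058 := hi
  rcases Nat.lt_or_ge i 1029 with h0 | h0
  · exact allR_spec _ (0 : ℕ) (1029 : ℕ) pk7_0 i (by omega) (by omega)
  exact allR_spec _ (1029 : ℕ) (1029 : ℕ) pk7_1 i (by omega) (by omega)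
theorem pk8 : allR (ckPerm (nat_lit 2058) X8 X9) (nat_lit 0) (nat_lit 2058) = true := by
  apply allR_of_forall
  intro i hi
  have hi : i < 2058 := hi
  rcases Nat.lt_or_ge i 1029 with h0 | h0
  · exact allR_spec _ (0 : ℕ) (1029 : ℕ) pk8_0 i (by omega) (by omega)
  exact allR_spec _ (1029 : ℕ) (1029 : ℕ) pk8_1 i (by omega) (by omega)
theorem pk9 : allR (ckPerm (nat_lit 2058) X9 X8) (nat_lit 0) (nat_lit 2058) = true := by
  apply allR_of_forall
  intro i hi
  have hi : i < 2058 := hi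
  rcases Nat.lt_or_ge i 1029 with h0 | h0
  · exact allR_spec _ (0 : ℕ) (1029 : ℕ) pk9_0 i (by omega) (by omega)
  exact allR_spec _ (1029 : ℕ) (1029 : ℕ) pk9_1 i (by omega) (by omega)
theorem pk10 : allR (ckPerm (nat_lit 2058) X10 X11) (nat_lit 0) (nat_lit 2058) = true := by
  apply allR_of_forall
  intro i hi
  have hi : i < 2058 := hi
  rcases Nat.lt_or_ge i 1029 with h0 | h0
  · exact allR_spec _ (0 : ℕ) (1029 : ℕ) pk10_0 i (by omega) (by omega)
  exact allR_spec _ (1029 : ℕ) (1029 : ℕ) pk10_1 i (by omega) (by omega)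
theorem pk11 : allR (ckPerm (nat_lit 2058) X11 X10) (nat_lit 0) (nat_lit 2058) = true := by
  apply allR_of_forall
  intro i hi
  have hi : i < 2058 := hi
  rcases Nat.lt_or_ge i 1029 with h0 | h0
  · exact allR_spec _ (0 : ℕ) (1029 : ℕ) pk11_0 i (by omega) (by omega)
  exact allR_spec _ (1029 : ℕ) (1029 : ℕ) pk11_1 i (by omega) (by omega)
theorem pk12 : allR (ckPerm (nat_lit 2058) X12 X13) (nat_lit 0) (nat_lit 2058) = true := by
  apply allR_of_forall
  intro i hi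
  have hi : i < 2058 := hi
  rcases Nat.lt_or_ge i 1029 with h0 | h0
  · exact allR_spec _ (0 : ℕ) (1029 : ℕ) pk12_0 i (by omega) (by omega)
  exact allR_spec _ (1029 : ℕ) (1029 : ℕ) pk12_1 i (by omega) (by omega)
theorem pk13 : allR (ckPerm (nat_lit 2058) X13 X12) (nat_lit 0) (nat_lit 2058) = true := by
  apply allR_of_forall
  intro i hi
  have hi : i < 2058 := hi
  rcases Nat.lt_or_ge i 1029 with h0 | h0
  · exact allR_spec _ (0 : ℕ) (1029 : ℕ) pk13_0 i (by omega) (by omega)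
  exact allR_spec _ (1029 : ℕ) (1029 : ℕ) pk13_1 i (by omega) (by omega)
theorem pk14 : allR (ckPerm (nat_lit 2058) X14 X15) (nat_lit 0) (nat_lit 2058) = true := by
  apply allR_of_forall
  intro i hi
  have hi : i < 2058 := hi
  rcases Nat.lt_or_ge i 1029 with h0 | h0
  · exact allR_spec _ (0 : ℕ) (1029 : ℕ) pk14_0 i (by omega) (by omega)
  exact allR_spec _ (1029 : ℕ) (1029 : ℕ) pk14_1 i (by omega) (by omega)
theorem pk15 : allR (ckPerm (nat_lit 2058) X15 X14) (nat_lit 0) (nat_lit 2058) = true := by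
  apply allR_of_forall
  intro i hi
  have hi : i < 2058 := hi
  rcases Nat.lt_or_ge i 1029 with h0 | h0
  · exact allR_spec _ (0 : ℕ) (1029 : ℕ) pk15_0 i (by omega) (by omega)
  exact allR_spec _ (1029 : ℕ) (1029 : ℕ) pk15_1 i (by omega) (by omega)
theorem pk16 : allR (ckPerm (nat_lit 2058) X16 X17) (nat_lit 0) (nat_lit 2058) = true := by
  apply allR_of_forall
  intro i hi
  have hi : i < 2058 := hi
  rcases Nat.lt_or_ge i 1029 with h0 | h0
  · exact allR_spec _ (0 : ℕ) (1029 : ℕ) pk16_0 i (by omega) (by omega)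
  exact allR_spec _ (1029 : ℕ) (1029 : ℕ) pk16_1 i (by omega) (by omega)
theorem pk17 : allR (ckPerm (nat_lit 2058) X17 X16) (nat_lit 0) (nat_lit 2058) = true := by
  apply allR_of_forall
  intro i hi
  have hi : i < 2058 := hi
  rcases Nat.lt_or_ge i 1029 with h0 | h0
  · exact allR_spec _ (0 : ℕ) (1029 : ℕ) pk17_0 i (by omega) (by omega)
  exact allR_spec _ (1029 : ℕ) (1029 : ℕ) pk17_1 i (by omega) (by omega)
theorem pk18 : allR (ckPerm (nat_lit 2058) X18 X19) (nat_lit 0) (nat_lit 2058) = true := by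
  apply allR_of_forall
  intro i hi
  have hi : i < 2058 := hi
  rcases Nat.lt_or_ge i 1029 with h0 | h0
  · exact allR_spec _ (0 : ℕ) (1029 : ℕ) pk18_0 i (by omega) (by omega)
  exact allR_spec _ (1029 : ℕ) (1029 : ℕ) pk18_1 i (by omega) (by omega)
theorem pk19 : allR (ckPerm (nat_lit 2058) X19 X18) (nat_lit 0) (nat_lit 2058) = true := by
  apply allR_of_forall
  intro i hi
  have hi : i < 2058 := hi
  rcases Nat.lt_or_ge i 1029 with h0 | h0
  · exact allR_spec _ (0 : ℕ) (1029 : ℕ) pk19_0 i (by omega) (by omega)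
  exact allR_spec _ (1029 : ℕ) (1029 : ℕ) pk19_1 i (by omega) (by omega)
theorem pk20 : allR (ckPerm (nat_lit 2058) X20 X21) (nat_lit 0) (nat_lit 2058) = true := by
  apply allR_of_forall
  intro i hi
  have hi : i < 2058 := hi
  rcases Nat.lt_or_ge i 1029 with h0 | h0
  · exact allR_spec _ (0 : ℕ) (1029 : ℕ) pk20_0 i (by omega) (by omega)
  exact allR_spec _ (1029 : ℕ) (1029 : ℕ) pk20_1 i (by omega) (by omega)
theorem pk21 : allR (ckPerm (nat_lit 2058) X21 X20) (nat_lit 0) (nat_lit 2058) = true := by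
  apply allR_of_forall
  intro i hi
  have hi : i < 2058 := hi
  rcases Nat.lt_or_ge i 1029 with h0 | h0
  · exact allR_spec _ (0 : ℕ) (1029 : ℕ) pk21_0 i (by omega) (by omega)
  exact allR_spec _ (1029 : ℕ) (1029 : ℕ) pk21_1 i (by omega) (by omega)
theorem pk22 : allR (ckPerm (nat_lit 2058) X22 X23) (nat_lit 0) (nat_lit 2058) = true := by
  apply allR_of_forall
  intro i hi
  have hi : i < 2058 := hi
  rcases Nat.lt_or_ge i 1029 with h0 | h0
  · exact allR_spec _ (0 : ℕ) (1029 : ℕ) pk22_0 i (by omega) (by omega)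
  exact allR_spec _ (1029 : ℕ) (1029 : ℕ) pk22_1 i (by omega) (by omega)
theorem pk23 : allR (ckPerm (nat_lit 2058) X23 X22) (nat_lit 0) (nat_lit 2058) = true := by
  apply allR_of_forall
  intro i hi
  have hi : i < 2058 := hi
  rcases Nat.lt_or_ge i 1029 with h0 | h0
  · exact allR_spec _ (0 : ℕ) (1029 : ℕ) pk23_0 i (by omega) (by omega)
  exact allR_spec _ (1029 : ℕ) (1029 : ℕ) pk23_1 i (by omega) (by omega)
theorem pk24 : allR (ckPerm (nat_lit 2058) X24 X25) (nat_lit 0) (nat_lit 2058) = true := by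
  apply allR_of_forall
  intro i hi
  have hi : i < 2058 := hi
  rcases Nat.lt_or_ge i 1029 with h0 | h0
  · exact allR_spec _ (0 : ℕ) (1029 : ℕ) pk24_0 i (by omega) (by omega)
  exact allR_spec _ (1029 : ℕ) (1029 : ℕ) pk24_1 i (by omega) (by omega)
theorem pk25 : allR (ckPerm (nat_lit 2058) X25 X24) (nat_lit 0) (nat_lit 2058) = true := by
  apply allR_of_forall
  intro i hi
  have hi : i < 2058 := hi
  rcases Nat.lt_or_ge i 1029 with h0 | h0
  · exact allR_spec _ (0 : ℕ) (1029 : ℕ) pk25_0 i (by omega) (by omega)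
  exact allR_spec _ (1029 : ℕ) (1029 : ℕ) pk25_1 i (by omega) (by omega)
theorem pk26 : allR (ckPerm (nat_lit 2058) X26 X27) (nat_lit 0) (nat_lit 2058) = true := by
  apply allR_of_forall
  intro i hi
  have hi : i < 2058 := hi
  rcases Nat.lt_or_ge i 1029 with h0 | h0
  · exact allR_spec _ (0 : ℕ) (1029 : ℕ) pk26_0 i (by omega) (by omega)
  exact allR_spec _ (1029 : ℕ) (1029 : ℕ) pk26_1 i (by omega) (by omega)
theorem pk27 : allR (ckPerm (nat_lit 2058) X27 X26) (nat_lit 0) (nat_lit 2058) = true := by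
  apply allR_of_forall
  intro i hi
  have hi : i < 2058 := hi
  rcases Nat.lt_or_ge i 1029 with h0 | h0
  · exact allR_spec _ (0 : ℕ) (1029 : ℕ) pk27_0 i (by omega) (by omega)
  exact allR_spec _ (1029 : ℕ) (1029 : ℕ) pk27_1 i (by omega) (by omega)
theorem pk28 : allR (ckPerm (nat_lit 2058) X28 X29) (nat_lit 0) (nat_lit 2058) = true := by
  apply allR_of_forall
  intro i hi
  have hi : i < 2058 := hi
  rcases Nat.lt_or_ge i 1029 with h0 | h0
  · exact allR_spec _ (0 : ℕ) (1029 : ℕ) pk28_0 i (by omega) (by omega)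
  exact allR_spec _ (1029 : ℕ) (1029 : ℕ) pk28_1 i (by omega) (by omega)
theorem pk29 : allR (ckPerm (nat_lit 2058) X29 X28) (nat_lit 0) (nat_lit 2058) = true := by
  apply allR_of_forall
  intro i hi
  have hi : i < 2058 := hi
  rcases Nat.lt_or_ge i 1029 with h0 | h0
  · exact allR_spec _ (0 : ℕ) (1029 : ℕ) pk29_0 i (by omega) (by omega)
  exact allR_spec _ (1029 : ℕ) (1029 : ℕ) pk29_1 i (by omega) (by omega)
theorem pk30 : allR (ckPerm (nat_lit 2058) X30 X31) (nat_lit 0) (nat_lit 2058) = true := by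
  apply allR_of_forall
  intro i hi
  have hi : i < 2058 := hi
  rcases Nat.lt_or_ge i 1029 with h0 | h0
  · exact allR_spec _ (0 : ℕ) (1029 : ℕ) pk30_0 i (by omega) (by omega)
  exact allR_spec _ (1029 : ℕ) (1029 : ℕ) pk30_1 i (by omega) (by omega)
theorem pk31 : allR (ckPerm (nat_lit 2058) X31 X30) (nat_lit 0) (nat_lit 2058) = true := by
  apply allR_of_forall
  intro i hi
  have hi : i < 2058 := hi
  rcases Nat.lt_or_ge i 1029 with h0 | h0
  · exact allR_spec _ (0 : ℕ) (1029 : ℕ) pk31_0 i (by omega) (by omega)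
  exact allR_spec _ (1029 : ℕ) (1029 : ℕ) pk31_1 i (by omega) (by omega)
theorem pk32 : allR (ckPerm (nat_lit 2058) X32 X33) (nat_lit 0) (nat_lit 2058) = true := by
  apply allR_of_forall
  intro i hi
  have hi : i < 2058 := hi
  rcases Nat.lt_or_ge i 1029 with h0 | h0
  · exact allR_spec _ (0 : ℕ) (1029 : ℕ) pk32_0 i (by omega) (by omega)
  exact allR_spec _ (1029 : ℕ) (1029 : ℕ) pk32_1 i (by omega) (by omega)
theorem pk33 : allR (ckPerm (nat_lit 2058) X33 X32) (nat_lit 0) (nat_lit 2058) = true := by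
  apply allR_of_forall
  intro i hi
  have hi : i < 2058 := hi
  rcases Nat.lt_or_ge i 1029 with h0 | h0
  · exact allR_spec _ (0 : ℕ) (1029 : ℕ) pk33_0 i (by omega) (by omega)
  exact allR_spec _ (1029 : ℕ) (1029 : ℕ) pk33_1 i (by omega) (by omega)
theorem wk0 : allR (OT.ckEqW [T4, T0, T1, T4, T6, T1, T5, T0, T6, T1, T0, T1] [X0]) (nat_lit 0) (nat_lit 2058) = true := by
  apply allR_of_forall
  intro i hi
  have hi : i < 2058 := hi
  rcases Nat.lt_or_ge i 158 with h0 | h0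
  · exact allR_spec _ (0 : ℕ) (158 : ℕ) wk0_0 i (by omega) (by omega)
  rcases Nat.lt_or_ge i 316 with h1 | h1
  · exact allR_spec _ (158 : ℕ) (158 : ℕ) wk0_1 i (by omega) (by omega)
  rcases Nat.lt_or_ge i 474 with h2 | h2
  · exact allR_spec _ (316 : ℕ) (158 : ℕ) wk0_2 i (by omega) (by omega)
  rcases Nat.lt_or_ge i 632 with h3 | h3
  · exact allR_spec _ (474 : ℕ) (158 : ℕ) wk0_3 i (by omega) (by omega)
  rcases Nat.lt_or_ge i 790 with h4 | h4
  · exact allR_spec _ (632 : ℕ) (158 : ℕ) wk0_4 i (by omega) (by omega)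
  rcases Nat.lt_or_ge i 948 with h5 | h5
  · exact allR_spec _ (790 : ℕ) (158 : ℕ) wk0_5 i (by omega) (by omega)
  rcases Nat.lt_or_ge i 1106 with h6 | h6
  · exact allR_spec _ (948 : ℕ) (158 : ℕ) wk0_6 i (by omega) (by omega)
  rcases Nat.lt_or_ge i 1264 with h7 | h7
  · exact allR_spec _ (1106 : ℕ) (158 : ℕ) wk0_7 i (by omega) (by omega)
  rcases Nat.lt_or_ge i 1422 with h8 | h8
  · exact allR_spec _ (1264 : ℕ) (158 : ℕ) wk0_8 i (by omega) (by omega)
  rcases Nat.lt_or_ge i 1580 with h9 | h9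
  · exact allR_spec _ (1422 : ℕ) (158 : ℕ) wk0_9 i (by omega) (by omega)
  rcases Nat.lt_or_ge i 1738 with h10 | h10
  · exact allR_spec _ (1580 : ℕ) (158 : ℕ) wk0_10 i (by omega) (by omega)
  rcases Nat.lt_or_ge i 1896 with h11 | h11
  · exact allR_spec _ (1738 : ℕ) (158 : ℕ) wk0_11 i (by omega) (by omega)
  rcases Nat.lt_or_ge i 2054 with h12 | h12
  · exact allR_spec _ (1896 : ℕ) (158 : ℕ) wk0_12 i (by omega) (by omega)
  exact allR_spec _ (2054 : ℕ) (4 : ℕ) wk0_13 i (by omega) (by omega)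
theorem wk1 : allR (OT.ckEqW [T3, T1, T0, T5, T4, T5, T3, T4, T1, T3, T5] [X2]) (nat_lit 0) (nat_lit 2058) = true := by
  apply allR_of_forall
  intro i hi
  have hi : i < 2058 := hi
  rcases Nat.lt_or_ge i 171 with h0 | h0
  · exact allR_spec _ (0 : ℕ) (171 : ℕ) wk1_0 i (by omega) (by omega)
  rcases Nat.lt_or_ge i 342 with h1 | h1
  · exact allR_spec _ (171 : ℕ) (171 : ℕ) wk1_1 i (by omega) (by omega)
  rcases Nat.lt_or_ge i 513 with h2 | h2
  · exact allR_spec _ (342 : ℕ) (171 : ℕ) wk1_2 i (by omega) (by omega)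
  rcases Nat.lt_or_ge i 684 with h3 | h3
  · exact allR_spec _ (513 : ℕ) (171 : ℕ) wk1_3 i (by omega) (by omega)
  rcases Nat.lt_or_ge i 855 with h4 | h4
  · exact allR_spec _ (684 : ℕ) (171 : ℕ) wk1_4 i (by omega) (by omega)
  rcases Nat.lt_or_ge i 1026 with h5 | h5
  · exact allR_spec _ (855 : ℕ) (171 : ℕ) wk1_5 i (by omega) (by omega)
  rcases Nat.lt_or_ge i 1197 with h6 | h6
  · exact allR_spec _ (1026 : ℕ) (171 : ℕ) wk1_6 i (by omega) (by omega)
  rcases Nat.lt_or_ge i 1368 with h7 | h7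
  · exact allR_spec _ (1197 : ℕ) (171 : ℕ) wk1_7 i (by omega) (by omega)
  rcases Nat.lt_or_ge i 1539 with h8 | h8
  · exact allR_spec _ (1368 : ℕ) (171 : ℕ) wk1_8 i (by omega) (by omega)
  rcases Nat.lt_or_ge i 1710 with h9 | h9
  · exact allR_spec _ (1539 : ℕ) (171 : ℕ) wk1_9 i (by omega) (by omega)
  rcases Nat.lt_or_ge i 1881 with h10 | h10
  · exact allR_spec _ (1710 : ℕ) (171 : ℕ) wk1_10 i (by omega) (by omega)
  rcases Nat.lt_or_ge i 2052 with h11 | h11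
  · exact allR_spec _ (1881 : ℕ) (171 : ℕ) wk1_11 i (by omega) (by omega)
  exact allR_spec _ (2052 : ℕ) (6 : ℕ) wk1_12 i (by omega) (by omega)
theorem wk2 : allR (OT.ckEqW [T6, T4, T2] [X4]) (nat_lit 0) (nat_lit 2058) = true := by
  apply allR_of_forall
  intro i hi
  have hi : i < 2058 := hi
  rcases Nat.lt_or_ge i 514 with h0 | h0
  · exact allR_spec _ (0 : ℕ) (514 : ℕ) wk2_0 i (by omega) (by omega)
  rcases Nat.lt_or_ge i 1028 with h1 | h1
  · exact allR_spec _ (514 : ℕ) (514 : ℕ) wk2_1 i (by omega) (by omega)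
  rcases Nat.lt_or_ge i 1542 with h2 | h2
  · exact allR_spec _ (1028 : ℕ) (514 : ℕ) wk2_2 i (by omega) (by omega)
  rcases Nat.lt_or_ge i 2056 with h3 | h3
  · exact allR_spec _ (1542 : ℕ) (514 : ℕ) wk2_3 i (by omega) (by omega)
  exact allR_spec _ (2056 : ℕ) (2 : ℕ) wk2_4 i (by omega) (by omega)
theorem wk3 : allR (OT.ckEqW [T1, T2, T1, T3, T0, T1, T2, T3, T2, T1, T6, T3, T5, T1, T2, T3, T1, T2, T0, T1] [X6]) (nat_lit 0) (nat_lit 2058) = true := by
  apply allR_of_forall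
  intro i hi
  have hi : i < 2058 := hi
  rcases Nat.lt_or_ge i 98 with h0 | h0
  · exact allR_spec _ (0 : ℕ) (98 : ℕ) wk3_0 i (by omega) (by omega)
  rcases Nat.lt_or_ge i 196 with h1 | h1
  · exact allR_spec _ (98 : ℕ) (98 : ℕ) wk3_1 i (by omega) (by omega)
  rcases Nat.lt_or_ge i 294 with h2 | h2
  · exact allR_spec _ (196 : ℕ) (98 : ℕ) wk3_2 i (by omega) (by omega)
  rcases Nat.lt_or_ge i 392 with h3 | h3
  · exact allR_spec _ (294 : ℕ) (98 : ℕ) wk3_3 i (by omega) (by omega)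
  rcases Nat.lt_or_ge i 490 with h4 | h4
  · exact allR_spec _ (392 : ℕ) (98 : ℕ) wk3_4 i (by omega) (by omega)
  rcases Nat.lt_or_ge i 588 with h5 | h5
  · exact allR_spec _ (490 : ℕ) (98 : ℕ) wk3_5 i (by omega) (by omega)
  rcases Nat.lt_or_ge i 686 with h6 | h6
  · exact allR_spec _ (588 : ℕ) (98 : ℕ) wk3_6 i (by omega) (by omega)
  rcases Nat.lt_or_ge i 784 with h7 | h7
  · exact allR_spec _ (686 : ℕ) (98 : ℕ) wk3_7 i (by omega) (by omega)
  rcases Nat.lt_or_ge i 882 with h8 | h8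
  · exact allR_spec _ (784 : ℕ) (98 : ℕ) wk3_8 i (by omega) (by omega)
  rcases Nat.lt_or_ge i 980 with h9 | h9
  · exact allR_spec _ (882 : ℕ) (98 : ℕ) wk3_9 i (by omega) (by omega)
  rcases Nat.lt_or_ge i 1078 with h10 | h10
  · exact allR_spec _ (980 : ℕ) (98 : ℕ) wk3_10 i (by omega) (by omega)
  rcases Nat.lt_or_ge i 1176 with h11 | h11
  · exact allR_spec _ (1078 : ℕ) (98 : ℕ) wk3_11 i (by omega) (by omega)
  rcases Nat.lt_or_ge i 1274 with h12 | h12
  · exact allR_spec _ (1176 : ℕ) (98 : ℕ) wk3_12 i (by omega) (by omega)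
  rcases Nat.lt_or_ge i 1372 with h13 | h13
  · exact allR_spec _ (1274 : ℕ) (98 : ℕ) wk3_13 i (by omega) (by omega)
  rcases Nat.lt_or_ge i 1470 with h14 | h14
  · exact allR_spec _ (1372 : ℕ) (98 : ℕ) wk3_14 i (by omega) (by omega)
  rcases Nat.lt_or_ge i 1568 with h15 | h15
  · exact allR_spec _ (1470 : ℕ) (98 : ℕ) wk3_15 i (by omega) (by omega)
  rcases Nat.lt_or_ge i 1666 with h16 | h16
  · exact allR_spec _ (1568 : ℕ) (98 : ℕ) wk3_16 i (by omega) (by omega)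
  rcases Nat.lt_or_ge i 1764 with h17 | h17
  · exact allR_spec _ (1666 : ℕ) (98 : ℕ) wk3_17 i (by omega) (by omega)
  rcases Nat.lt_or_ge i 1862 with h18 | h18
  · exact allR_spec _ (1764 : ℕ) (98 : ℕ) wk3_18 i (by omega) (by omega)
  rcases Nat.lt_or_ge i 1960 with h19 | h19
  · exact allR_spec _ (1862 : ℕ) (98 : ℕ) wk3_19 i (by omega) (by omega)
  exact allR_spec _ (1960 : ℕ) (98 : ℕ) wk3_20 i (by omega) (by omega)
theorem wk4 : allR (OT.ckEqW [X3, X3, X5, X7, X0, X2, X2, X6, X5] [X8]) (nat_lit 0) (nat_lit 2058) = true := by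
  apply allR_of_forall
  intro i hi
  have hi : i < 2058 := hi
  rcases Nat.lt_or_ge i 205 with h0 | h0
  · exact allR_spec _ (0 : ℕ) (205 : ℕ) wk4_0 i (by omega) (by omega)
  rcases Nat.lt_or_ge i 410 with h1 | h1
  · exact allR_spec _ (205 : ℕ) (205 : ℕ) wk4_1 i (by omega) (by omega)
  rcases Nat.lt_or_ge i 615 with h2 | h2
  · exact allR_spec _ (410 : ℕ) (205 : ℕ) wk4_2 i (by omega) (by omega)
  rcases Nat.lt_or_ge i 820 with h3 | h3
  · exact allR_spec _ (615 : ℕ) (205 : ℕ) wk4_3 i (by omega) (by omega)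
  rcases Nat.lt_or_ge i 1025 with h4 | h4
  · exact allR_spec _ (820 : ℕ) (205 : ℕ) wk4_4 i (by omega) (by omega)
  rcases Nat.lt_or_ge i 1230 with h5 | h5
  · exact allR_spec _ (1025 : ℕ) (205 : ℕ) wk4_5 i (by omega) (by omega)
  rcases Nat.lt_or_ge i 1435 with h6 | h6
  · exact allR_spec _ (1230 : ℕ) (205 : ℕ) wk4_6 i (by omega) (by omega)
  rcases Nat.lt_or_ge i 1640 with h7 | h7
  · exact allR_spec _ (1435 : ℕ) (205 : ℕ) wk4_7 i (by omega) (by omega)
  rcases Nat.lt_or_ge i 1845 with h8 | h8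
  · exact allR_spec _ (1640 : ℕ) (205 : ℕ) wk4_8 i (by omega) (by omega)
  rcases Nat.lt_or_ge i 2050 with h9 | h9
  · exact allR_spec _ (1845 : ℕ) (205 : ℕ) wk4_9 i (by omega) (by omega)
  exact allR_spec _ (2050 : ℕ) (8 : ℕ) wk4_10 i (by omega) (by omega)
theorem wk5 : allR (OT.ckEqW [X1, X4, X6, X0, X7, X7, X5, X1, X1, X7, X7, X7, X5, X1, X5, X1] [X10]) (nat_lit 0) (nat_lit 2058) = true := by
  apply allR_of_forall
  intro i hi
  have hi : i < 2058 := hi
  rcases Nat.lt_or_ge i 121 with h0 | h0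
  · exact allR_spec _ (0 : ℕ) (121 : ℕ) wk5_0 i (by omega) (by omega)
  rcases Nat.lt_or_ge i 242 with h1 | h1
  · exact allR_spec _ (121 : ℕ) (121 : ℕ) wk5_1 i (by omega) (by omega)
  rcases Nat.lt_or_ge i 363 with h2 | h2
  · exact allR_spec _ (242 : ℕ) (121 : ℕ) wk5_2 i (by omega) (by omega)
  rcases Nat.lt_or_ge i 484 with h3 | h3
  · exact allR_spec _ (363 : ℕ) (121 : ℕ) wk5_3 i (by omega) (by omega)
  rcases Nat.lt_or_ge i 605 with h4 | h4
  · exact allR_spec _ (484 : ℕ) (121 : ℕ) wk5_4 i (by omega) (by omega)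
  rcases Nat.lt_or_ge i 726 with h5 | h5
  · exact allR_spec _ (605 : ℕ) (121 : ℕ) wk5_5 i (by omega) (by omega)
  rcases Nat.lt_or_ge i 847 with h6 | h6
  · exact allR_spec _ (726 : ℕ) (121 : ℕ) wk5_6 i (by omega) (by omega)
  rcases Nat.lt_or_ge i 968 with h7 | h7
  · exact allR_spec _ (847 : ℕ) (121 : ℕ) wk5_7 i (by omega) (by omega)
  rcases Nat.lt_or_ge i 1089 with h8 | h8
  · exact allR_spec _ (968 : ℕ) (121 : ℕ) wk5_8 i (by omega) (by omega)
  rcases Nat.lt_or_ge i 1210 with h9 | h9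
  · exact allR_spec _ (1089 : ℕ) (121 : ℕ) wk5_9 i (by omega) (by omega)
  rcases Nat.lt_or_ge i 1331 with h10 | h10
  · exact allR_spec _ (1210 : ℕ) (121 : ℕ) wk5_10 i (by omega) (by omega)
  rcases Nat.lt_or_ge i 1452 with h11 | h11
  · exact allR_spec _ (1331 : ℕ) (121 : ℕ) wk5_11 i (by omega) (by omega)
  rcases Nat.lt_or_ge i 1573 with h12 | h12
  · exact allR_spec _ (1452 : ℕ) (121 : ℕ) wk5_12 i (by omega) (by omega)
  rcases Nat.lt_or_ge i 1694 with h13 | h13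
  · exact allR_spec _ (1573 : ℕ) (121 : ℕ) wk5_13 i (by omega) (by omega)
  rcases Nat.lt_or_ge i 1815 with h14 | h14
  · exact allR_spec _ (1694 : ℕ) (121 : ℕ) wk5_14 i (by omega) (by omega)
  rcases Nat.lt_or_ge i 1936 with h15 | h15
  · exact allR_spec _ (1815 : ℕ) (121 : ℕ) wk5_15 i (by omega) (by omega)
  rcases Nat.lt_or_ge i 2057 with h16 | h16
  · exact allR_spec _ (1936 : ℕ) (121 : ℕ) wk5_16 i (by omega) (by omega)
  exact allR_spec _ (2057 : ℕ) (1 : ℕ) wk5_17 i (by omega) (by omega)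
theorem wk6 : allR (OT.ckEqW [X9, X10, X10, X8, X8, X11, X11, X9, X9, X11, X11, X11, X8, X11, X9, X11, X11, X8, X11, X9, X10, X9, X11, X11] [X12]) (nat_lit 0) (nat_lit 2058) = true := by
  apply allR_of_forall
  intro i hi
  have hi : i < 2058 := hi
  rcases Nat.lt_or_ge i 82 with h0 | h0
  · exact allR_spec _ (0 : ℕ) (82 : ℕ) wk6_0 i (by omega) (by omega)
  rcases Nat.lt_or_ge i 164 with h1 | h1
  · exact allR_spec _ (82 : ℕ) (82 : ℕ) wk6_1 i (by omega) (by omega)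
  rcases Nat.lt_or_ge i 246 with h2 | h2
  · exact allR_spec _ (164 : ℕ) (82 : ℕ) wk6_2 i (by omega) (by omega)
  rcases Nat.lt_or_ge i 328 with h3 | h3
  · exact allR_spec _ (246 : ℕ) (82 : ℕ) wk6_3 i (by omega) (by omega)
  rcases Nat.lt_or_ge i 410 with h4 | h4
  · exact allR_spec _ (328 : ℕ) (82 : ℕ) wk6_4 i (by omega) (by omega)
  rcases Nat.lt_or_ge i 492 with h5 | h5
  · exact allR_spec _ (410 : ℕ) (82 : ℕ) wk6_5 i (by omega) (by omega)
  rcases Nat.lt_or_ge i 574 with h6 | h6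
  · exact allR_spec _ (492 : ℕ) (82 : ℕ) wk6_6 i (by omega) (by omega)
  rcases Nat.lt_or_ge i 656 with h7 | h7
  · exact allR_spec _ (574 : ℕ) (82 : ℕ) wk6_7 i (by omega) (by omega)
  rcases Nat.lt_or_ge i 738 with h8 | h8
  · exact allR_spec _ (656 : ℕ) (82 : ℕ) wk6_8 i (by omega) (by omega)
  rcases Nat.lt_or_ge i 820 with h9 | h9
  · exact allR_spec _ (738 : ℕ) (82 : ℕ) wk6_9 i (by omega) (by omega)
  rcases Nat.lt_or_ge i 902 with h10 | h10
  · exact allR_spec _ (820 : ℕ) (82 : ℕ) wk6_10 i (by omega) (by omega)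
  rcases Nat.lt_or_ge i 984 with h11 | h11
  · exact allR_spec _ (902 : ℕ) (82 : ℕ) wk6_11 i (by omega) (by omega)
  rcases Nat.lt_or_ge i 1066 with h12 | h12
  · exact allR_spec _ (984 : ℕ) (82 : ℕ) wk6_12 i (by omega) (by omega)
  rcases Nat.lt_or_ge i 1148 with h13 | h13
  · exact allR_spec _ (1066 : ℕ) (82 : ℕ) wk6_13 i (by omega) (by omega)
  rcases Nat.lt_or_ge i 1230 with h14 | h14
  · exact allR_spec _ (1148 : ℕ) (82 : ℕ) wk6_14 i (by omega) (by omega)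
  rcases Nat.lt_or_ge i 1312 with h15 | h15
  · exact allR_spec _ (1230 : ℕ) (82 : ℕ) wk6_15 i (by omega) (by omega)
  rcases Nat.lt_or_ge i 1394 with h16 | h16
  · exact allR_spec _ (1312 : ℕ) (82 : ℕ) wk6_16 i (by omega) (by omega)
  rcases Nat.lt_or_ge i 1476 with h17 | h17
  · exact allR_spec _ (1394 : ℕ) (82 : ℕ) wk6_17 i (by omega) (by omega)
  rcases Nat.lt_or_ge i 1558 with h18 | h18
  · exact allR_spec _ (1476 : ℕ) (82 : ℕ) wk6_18 i (by omega) (by omega)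
  rcases Nat.lt_or_ge i 1640 with h19 | h19
  · exact allR_spec _ (1558 : ℕ) (82 : ℕ) wk6_19 i (by omega) (by omega)
  rcases Nat.lt_or_ge i 1722 with h20 | h20
  · exact allR_spec _ (1640 : ℕ) (82 : ℕ) wk6_20 i (by omega) (by omega)
  rcases Nat.lt_or_ge i 1804 with h21 | h21
  · exact allR_spec _ (1722 : ℕ) (82 : ℕ) wk6_21 i (by omega) (by omega)
  rcases Nat.lt_or_ge i 1886 with h22 | h22
  · exact allR_spec _ (1804 : ℕ) (82 : ℕ) wk6_22 i (by omega) (by omega)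
  rcases Nat.lt_or_ge i 1968 with h23 | h23
  · exact allR_spec _ (1886 : ℕ) (82 : ℕ) wk6_23 i (by omega) (by omega)
  rcases Nat.lt_or_ge i 2050 with h24 | h24
  · exact allR_spec _ (1968 : ℕ) (82 : ℕ) wk6_24 i (by omega) (by omega)
  exact allR_spec _ (2050 : ℕ) (8 : ℕ) wk6_25 i (by omega) (by omega)
theorem wk7 : allR (OT.ckEqW [X8] [X14]) (nat_lit 0) (nat_lit 2058) = true := by
  apply allR_of_forall
  intro i hi
  have hi : i < 2058 := hi
  rcases Nat.lt_or_ge i 1029 with h0 | h0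
  · exact allR_spec _ (0 : ℕ) (1029 : ℕ) wk7_0 i (by omega) (by omega)
  exact allR_spec _ (1029 : ℕ) (1029 : ℕ) wk7_1 i (by omega) (by omega)
theorem wk8 : allR (OT.ckEqW [X11, X11, X11, X8, X10, X8, X11, X9, X10, X9, X10] [X16]) (nat_lit 0) (nat_lit 2058) = true := by
  apply allR_of_forall
  intro i hi
  have hi : i < 2058 := hi
  rcases Nat.lt_or_ge i 171 with h0 | h0
  · exact allR_spec _ (0 : ℕ) (171 : ℕ) wk8_0 i (by omega) (by omega)
  rcases Nat.lt_or_ge i 342 with h1 | h1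
  · exact allR_spec _ (171 : ℕ) (171 : ℕ) wk8_1 i (by omega) (by omega)
  rcases Nat.lt_or_ge i 513 with h2 | h2
  · exact allR_spec _ (342 : ℕ) (171 : ℕ) wk8_2 i (by omega) (by omega)
  rcases Nat.lt_or_ge i 684 with h3 | h3
  · exact allR_spec _ (513 : ℕ) (171 : ℕ) wk8_3 i (by omega) (by omega)
  rcases Nat.lt_or_ge i 855 with h4 | h4
  · exact allR_spec _ (684 : ℕ) (171 : ℕ) wk8_4 i (by omega) (by omega)
  rcases Nat.lt_or_ge i 1026 with h5 | h5
  · exact allR_spec _ (855 : ℕ) (171 : ℕ) wk8_5 i (by omega) (by omega)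
  rcases Nat.lt_or_ge i 1197 with h6 | h6
  · exact allR_spec _ (1026 : ℕ) (171 : ℕ) wk8_6 i (by omega) (by omega)
  rcases Nat.lt_or_ge i 1368 with h7 | h7
  · exact allR_spec _ (1197 : ℕ) (171 : ℕ) wk8_7 i (by omega) (by omega)
  rcases Nat.lt_or_ge i 1539 with h8 | h8
  · exact allR_spec _ (1368 : ℕ) (171 : ℕ) wk8_8 i (by omega) (by omega)
  rcases Nat.lt_or_ge i 1710 with h9 | h9
  · exact allR_spec _ (1539 : ℕ) (171 : ℕ) wk8_9 i (by omega) (by omega)
  rcases Nat.lt_or_ge i 1881 with h10 | h10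
  · exact allR_spec _ (1710 : ℕ) (171 : ℕ) wk8_10 i (by omega) (by omega)
  rcases Nat.lt_or_ge i 2052 with h11 | h11
  · exact allR_spec _ (1881 : ℕ) (171 : ℕ) wk8_11 i (by omega) (by omega)
  exact allR_spec _ (2052 : ℕ) (6 : ℕ) wk8_12 i (by omega) (by omega)
theorem wk9 : allR (OT.ckEqW [X15, X17, X17] [X18]) (nat_lit 0) (nat_lit 2058) = true := by
  apply allR_of_forall
  intro i hi
  have hi : i < 2058 := hi
  rcases Nat.lt_or_ge i 514 with h0 | h0
  · exact allR_spec _ (0 : ℕ) (514 : ℕ) wk9_0 i (by omega) (by omega)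
  rcases Nat.lt_or_ge i 1028 with h1 | h1
  · exact allR_spec _ (514 : ℕ) (514 : ℕ) wk9_1 i (by omega) (by omega)
  rcases Nat.lt_or_ge i 1542 with h2 | h2
  · exact allR_spec _ (1028 : ℕ) (514 : ℕ) wk9_2 i (by omega) (by omega)
  rcases Nat.lt_or_ge i 2056 with h3 | h3
  · exact allR_spec _ (1542 : ℕ) (514 : ℕ) wk9_3 i (by omega) (by omega)
  exact allR_spec _ (2056 : ℕ) (2 : ℕ) wk9_4 i (by omega) (by omega)
theorem wk10 : allR (OT.ckEqW [X12] [X20]) (nat_lit 0) (nat_lit 2058) = true := by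
  apply allR_of_forall
  intro i hi
  have hi : i < 2058 := hi
  rcases Nat.lt_or_ge i 1029 with h0 | h0
  · exact allR_spec _ (0 : ℕ) (1029 : ℕ) wk10_0 i (by omega) (by omega)
  exact allR_spec _ (1029 : ℕ) (1029 : ℕ) wk10_1 i (by omega) (by omega)
theorem wk11 : allR (OT.ckEqW [X20, X19, X19, X20] [X22]) (nat_lit 0) (nat_lit 2058) = true := by
  apply allR_of_forall
  intro i hi
  have hi : i < 2058 := hi
  rcases Nat.lt_or_ge i 411 with h0 | h0
  · exact allR_spec _ (0 : ℕ) (411 : ℕ) wk11_0 i (by omega) (by omega)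
  rcases Nat.lt_or_ge i 822 with h1 | h1
  · exact allR_spec _ (411 : ℕ) (411 : ℕ) wk11_1 i (by omega) (by omega)
  rcases Nat.lt_or_ge i 1233 with h2 | h2
  · exact allR_spec _ (822 : ℕ) (411 : ℕ) wk11_2 i (by omega) (by omega)
  rcases Nat.lt_or_ge i 1644 with h3 | h3
  · exact allR_spec _ (1233 : ℕ) (411 : ℕ) wk11_3 i (by omega) (by omega)
  rcases Nat.lt_or_ge i 2055 with h4 | h4
  · exact allR_spec _ (1644 : ℕ) (411 : ℕ) wk11_4 i (by omega) (by omega)
  exact allR_spec _ (2055 : ℕ) (3 : ℕ) wk11_5 i (by omega) (by omega)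
theorem wk12 : allR (OT.ckEqW [X18] [X24]) (nat_lit 0) (nat_lit 2058) = true := by
  apply allR_of_forall
  intro i hi
  have hi : i < 2058 := hi
  rcases Nat.lt_or_ge i 1029 with h0 | h0
  · exact allR_spec _ (0 : ℕ) (1029 : ℕ) wk12_0 i (by omega) (by omega)
  exact allR_spec _ (1029 : ℕ) (1029 : ℕ) wk12_1 i (by omega) (by omega)
theorem wk13 : allR (OT.ckEqW [X23] [X26]) (nat_lit 0) (nat_lit 2058) = true := by
  apply allR_of_forall
  intro i hi
  have hi : i < 2058 := hi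
  rcases Nat.lt_or_ge i 1029 with h0 | h0
  · exact allR_spec _ (0 : ℕ) (1029 : ℕ) wk13_0 i (by omega) (by omega)
  exact allR_spec _ (1029 : ℕ) (1029 : ℕ) wk13_1 i (by omega) (by omega)
theorem wk14 : allR (OT.ckEqW [T3] [X28]) (nat_lit 0) (nat_lit 2058) = true := by
  apply allR_of_forall
  intro i hi
  have hi : i < 2058 := hi
  rcases Nat.lt_or_ge i 1029 with h0 | h0
  · exact allR_spec _ (0 : ℕ) (1029 : ℕ) wk14_0 i (by omega) (by omega)
  exact allR_spec _ (1029 : ℕ) (1029 : ℕ) wk14_1 i (by omega) (by omega)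
theorem wk15 : allR (OT.ckEqW [X26, X24, X10, X10, X4, X6, X6, X4, X7, X7, X4, T1, T6, T3, T2, T1, T3, T6] [X30]) (nat_lit 0) (nat_lit 2058) = true := by
  apply allR_of_forall
  intro i hi
  have hi : i < 2058 := hi
  rcases Nat.lt_or_ge i 108 with h0 | h0
  · exact allR_spec _ (0 : ℕ) (108 : ℕ) wk15_0 i (by omega) (by omega)
  rcases Nat.lt_or_ge i 216 with h1 | h1
  · exact allR_spec _ (108 : ℕ) (108 : ℕ) wk15_1 i (by omega) (by omega)
  rcases Nat.lt_or_ge i 324 with h2 | h2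
  · exact allR_spec _ (216 : ℕ) (108 : ℕ) wk15_2 i (by omega) (by omega)
  rcases Nat.lt_or_ge i 432 with h3 | h3
  · exact allR_spec _ (324 : ℕ) (108 : ℕ) wk15_3 i (by omega) (by omega)
  rcases Nat.lt_or_ge i 540 with h4 | h4
  · exact allR_spec _ (432 : ℕ) (108 : ℕ) wk15_4 i (by omega) (by omega)
  rcases Nat.lt_or_ge i 648 with h5 | h5
  · exact allR_spec _ (540 : ℕ) (108 : ℕ) wk15_5 i (by omega) (by omega)
  rcases Nat.lt_or_ge i 756 with h6 | h6
  · exact allR_spec _ (648 : ℕ) (108 : ℕ) wk15_6 i (by omega) (by omega)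
  rcases Nat.lt_or_ge i 864 with h7 | h7
  · exact allR_spec _ (756 : ℕ) (108 : ℕ) wk15_7 i (by omega) (by omega)
  rcases Nat.lt_or_ge i 972 with h8 | h8
  · exact allR_spec _ (864 : ℕ) (108 : ℕ) wk15_8 i (by omega) (by omega)
  rcases Nat.lt_or_ge i 1080 with h9 | h9
  · exact allR_spec _ (972 : ℕ) (108 : ℕ) wk15_9 i (by omega) (by omega)
  rcases Nat.lt_or_ge i 1188 with h10 | h10
  · exact allR_spec _ (1080 : ℕ) (108 : ℕ) wk15_10 i (by omega) (by omega)
  rcases Nat.lt_or_ge i 1296 with h11 | h11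
  · exact allR_spec _ (1188 : ℕ) (108 : ℕ) wk15_11 i (by omega) (by omega)
  rcases Nat.lt_or_ge i 1404 with h12 | h12
  · exact allR_spec _ (1296 : ℕ) (108 : ℕ) wk15_12 i (by omega) (by omega)
  rcases Nat.lt_or_ge i 1512 with h13 | h13
  · exact allR_spec _ (1404 : ℕ) (108 : ℕ) wk15_13 i (by omega) (by omega)
  rcases Nat.lt_or_ge i 1620 with h14 | h14
  · exact allR_spec _ (1512 : ℕ) (108 : ℕ) wk15_14 i (by omega) (by omega)
  rcases Nat.lt_or_ge i 1728 with h15 | h15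
  · exact allR_spec _ (1620 : ℕ) (108 : ℕ) wk15_15 i (by omega) (by omega)
  rcases Nat.lt_or_ge i 1836 with h16 | h16
  · exact allR_spec _ (1728 : ℕ) (108 : ℕ) wk15_16 i (by omega) (by omega)
  rcases Nat.lt_or_ge i 1944 with h17 | h17
  · exact allR_spec _ (1836 : ℕ) (108 : ℕ) wk15_17 i (by omega) (by omega)
  rcases Nat.lt_or_ge i 2052 with h18 | h18
  · exact allR_spec _ (1944 : ℕ) (108 : ℕ) wk15_18 i (by omega) (by omega)
  exact allR_spec _ (2052 : ℕ) (6 : ℕ) wk15_19 i (by omega) (by omega)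
theorem wk16 : allR (OT.ckEqW [X24, X20, X16, X10, X8, X10, X10, X8, X7, X0, X7, X4, X6, X6, T6, T3, T2, T1, T4, T5] [X32]) (nat_lit 0) (nat_lit 2058) = true := by
  apply allR_of_forall
  intro i hi
  have hi : i < 2058 := hi
  rcases Nat.lt_or_ge i 98 with h0 | h0
  · exact allR_spec _ (0 : ℕ) (98 : ℕ) wk16_0 i (by omega) (by omega)
  rcases Nat.lt_or_ge i 196 with h1 | h1
  · exact allR_spec _ (98 : ℕ) (98 : ℕ) wk16_1 i (by omega) (by omega)
  rcases Nat.lt_or_ge i 294 with h2 | h2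
  · exact allR_spec _ (196 : ℕ) (98 : ℕ) wk16_2 i (by omega) (by omega)
  rcases Nat.lt_or_ge i 392 with h3 | h3
  · exact allR_spec _ (294 : ℕ) (98 : ℕ) wk16_3 i (by omega) (by omega)
  rcases Nat.lt_or_ge i 490 with h4 | h4
  · exact allR_spec _ (392 : ℕ) (98 : ℕ) wk16_4 i (by omega) (by omega)
  rcases Nat.lt_or_ge i 588 with h5 | h5
  · exact allR_spec _ (490 : ℕ) (98 : ℕ) wk16_5 i (by omega) (by omega)
  rcases Nat.lt_or_ge i 686 with h6 | h6
  · exact allR_spec _ (588 : ℕ) (98 : ℕ) wk16_6 i (by omega) (by omega)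
  rcases Nat.lt_or_ge i 784 with h7 | h7
  · exact allR_spec _ (686 : ℕ) (98 : ℕ) wk16_7 i (by omega) (by omega)
  rcases Nat.lt_or_ge i 882 with h8 | h8
  · exact allR_spec _ (784 : ℕ) (98 : ℕ) wk16_8 i (by omega) (by omega)
  rcases Nat.lt_or_ge i 980 with h9 | h9
  · exact allR_spec _ (882 : ℕ) (98 : ℕ) wk16_9 i (by omega) (by omega)
  rcases Nat.lt_or_ge i 1078 with h10 | h10
  · exact allR_spec _ (980 : ℕ) (98 : ℕ) wk16_10 i (by omega) (by omega)
  rcases Nat.lt_or_ge i 1176 with h11 | h11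
  · exact allR_spec _ (1078 : ℕ) (98 : ℕ) wk16_11 i (by omega) (by omega)
  rcases Nat.lt_or_ge i 1274 with h12 | h12
  · exact allR_spec _ (1176 : ℕ) (98 : ℕ) wk16_12 i (by omega) (by omega)
  rcases Nat.lt_or_ge i 1372 with h13 | h13
  · exact allR_spec _ (1274 : ℕ) (98 : ℕ) wk16_13 i (by omega) (by omega)
  rcases Nat.lt_or_ge i 1470 with h14 | h14
  · exact allR_spec _ (1372 : ℕ) (98 : ℕ) wk16_14 i (by omega) (by omega)
  rcases Nat.lt_or_ge i 1568 with h15 | h15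
  · exact allR_spec _ (1470 : ℕ) (98 : ℕ) wk16_15 i (by omega) (by omega)
  rcases Nat.lt_or_ge i 1666 with h16 | h16
  · exact allR_spec _ (1568 : ℕ) (98 : ℕ) wk16_16 i (by omega) (by omega)
  rcases Nat.lt_or_ge i 1764 with h17 | h17
  · exact allR_spec _ (1666 : ℕ) (98 : ℕ) wk16_17 i (by omega) (by omega)
  rcases Nat.lt_or_ge i 1862 with h18 | h18
  · exact allR_spec _ (1764 : ℕ) (98 : ℕ) wk16_18 i (by omega) (by omega)
  rcases Nat.lt_or_ge i 1960 with h19 | h19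
  · exact allR_spec _ (1862 : ℕ) (98 : ℕ) wk16_19 i (by omega) (by omega)
  exact allR_spec _ (1960 : ℕ) (98 : ℕ) wk16_20 i (by omega) (by omega)
def bws : List (List Nat) := [[4, 0, 1, 4, 6, 1, 5, 0, 6, 1, 0, 1], [3, 1, 0, 5, 4, 5, 3, 4, 1, 3, 5], [6, 4, 2], [1, 2, 1, 3, 0, 1, 2, 3, 2, 1, 6, 3, 5, 1, 2, 3, 1, 2, 0, 1], [10, 10, 12, 14, 7, 9, 9, 13, 12], [8, 11, 13, 7, 14, 14, 12, 8, 8, 14, 14, 14, 12, 8, 12, 8], [16, 17, 17, 15, 15, 18, 18, 16, 16, 18, 18, 18, 15, 18, 16, 18, 18, 15, 18, 16, 17, 16, 18, 18], [15], [18, 18, 18, 15, 17, 15, 18, 16, 17, 16, 17], [22, 24, 24], [19], [27, 26, 26, 27], [25], [30], [3], [33, 31, 17, 17, 11, 13, 13, 11, 14, 14, 11, 1, 6, 3, 2, 1, 3, 6], [31, 27, 23, 17, 15, 17, 17, 15, 14, 7, 14, 11, 13, 13, 6, 3, 2, 1, 4, 5]]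
noncomputable def T' : Nat → Nat → Nat := fun l => (@Nat.rec (fun _ => Nat → Nat) T0 (fun l _ => (@Nat.rec (fun _ => Nat → Nat) T1 (fun l _ => (@Nat.rec (fun _ => Nat → Nat) T2 (fun l _ => (@Nat.rec (fun _ => Nat → Nat) T3 (fun l _ => (@Nat.rec (fun _ => Nat → Nat) T4 (fun l _ => (@Nat.rec (fun _ => Nat → Nat) T5 (fun l _ => (@Nat.rec (fun _ => Nat → Nat) T6 (fun l _ => (@Nat.rec (fun _ => Nat → Nat) X0 (fun l _ => (@Nat.rec (fun _ => Nat → Nat) X1 (fun l _ => (@Nat.rec (fun _ => Nat → Nat) X2 (fun l _ => (@Nat.rec (fun _ => Nat → Nat) X3 (fun l _ => (@Nat.rec (fun _ => Nat → Nat) X4 (fun l _ => (@Nat.rec (fun _ => Nat → Nat) X5 (fun l _ => (@Nat.rec (fun _ => Nat → Nat) X6 (fun l _ => (@Nat.rec (fun _ => Nat → Nat) X7 (fun l _ => (@Nat.rec (fun _ => Nat → Nat) X8 (fun l _ => (@Nat.rec (fun _ => Nat → Nat) X9 (fun l _ => (@Nat.rec (fun _ => Nat → Nat) X10 (fun l _ => (@Nat.rec (fun _ => Nat → Nat) X11 (fun l _ =>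 (@Nat.rec (fun _ => Nat → Nat) X12 (fun l _ => (@Nat.rec (fun _ => Nat → Nat) X13 (fun l _ => (@Nat.rec (fun _ => Nat → Nat) X14 (fun l _ => (@Nat.rec (fun _ => Nat → Nat) X15 (fun l _ => (@Nat.rec (fun _ => Nat → Nat) X16 (fun l _ => (@Nat.rec (fun _ => Nat → Nat) X17 (fun l _ => (@Nat.rec (fun _ => Nat → Nat) X18 (fun l _ => (@Nat.rec (fun _ => Nat → Nat) X19 (fun l _ => (@Nat.rec (fun _ => Nat → Nat) X20 (fun l _ => (@Nat.rec (fun _ => Nat → Nat) X21 (fun l _ => (@Nat.rec (fun _ => Nat → Nat) X22 (fun l _ => (@Nat.rec (fun _ => Nat → Nat) X23 (fun l _ => (@Nat.rec (fun _ => Nat → Nat) X24 (fun l _ => (@Nat.rec (fun _ => Nat → Nat) X25 (fun l _ => (@Nat.rec (fun _ => Nat → Nat) X26 (fun l _ => (@Nat.rec (fun _ => Nat → Nat) X27 (fun l _ => (@Nat.rec (fun _ => Nat → Nat) X28 (fun l _ => (@Nat.rec (fun _ => Nat → Nat) X29 (fun l _ => (@Nat.rec (fun _ => Nat → Nat) X30 (fun l _ => (@Nat.rec (fun _ => Nat → Nat) X31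 (fun l _ => (@Nat.rec (fun _ => Nat → Nat) X32 (fun l _ => X33) l)) l)) l)) l)) l)) l)) l)) l)) l)) l)) l)) l)) l)) l)) l)) l)) l)) l)) l)) l)) l)) l)) l)) l)) l)) l)) l)) l)) l)) l)) l)) l)) l)) l)) l)) l)) l)) l)) l)) l)
def inv' : Nat → Nat := fun l => [0, 1, 2, 3, 4, 5, 6, 8, 7, 10, 9, 12, 11, 14, 13, 16, 15, 18, 17, 20, 19, 22, 21, 24, 23, 26, 25, 28, 27, 30, 29, 32, 31, 34, 33, 36, 35, 38, 37, 40, 39].getD l 0

theorem hTT : ∀ l < 7, T' l = Cfsg.Agent.H8.Het.T l := by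
  intro l hl
  interval_cases l <;> rfl

theorem hii : ∀ l < 7, inv' l = Cfsg.Agent.H8.Het.inv l := by
  intro l hl
  interval_cases l <;> rfl

theorem h1 : ∀ l, 7 ≤ l → l < 41 → inv' l < 41 ∧ inv' (inv' l) = l := by
  intro l h1 h2
  interval_cases l <;> decide

theorem h2 : ∀ l, 7 ≤ l → l < 41 → ∀ i < 2058, T' l i < 2058 ∧ T' (inv' l) (T' l i) = i := by
  intro l h1 h2 i hi
  interval_cases l
  · exact ckPerm_sound _ _ _ _ (allR_zero _ _ pk0 i hi)
  · exact ckPerm_sound _ _ _ _ (allR_zero _ _ pk1 i hi)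
  · exact ckPerm_sound _ _ _ _ (allR_zero _ _ pk2 i hi)
  · exact ckPerm_sound _ _ _ _ (allR_zero _ _ pk3 i hi)
  · exact ckPerm_sound _ _ _ _ (allR_zero _ _ pk4 i hi)
  · exact ckPerm_sound _ _ _ _ (allR_zero _ _ pk5 i hi)
  · exact ckPerm_sound _ _ _ _ (allR_zero _ _ pk6 i hi)
  · exact ckPerm_sound _ _ _ _ (allR_zero _ _ pk7 i hi)
  · exact ckPerm_sound _ _ _ _ (allR_zero _ _ pk8 i hi)
  · exact ckPerm_sound _ _ _ _ (allR_zero _ _ pk9 i hi)
  · exact ckPerm_sound _ _ _ _ (allR_zero _ _ pk10 i hi)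
  · exact ckPerm_sound _ _ _ _ (allR_zero _ _ pk11 i hi)
  · exact ckPerm_sound _ _ _ _ (allR_zero _ _ pk12 i hi)
  · exact ckPerm_sound _ _ _ _ (allR_zero _ _ pk13 i hi)
  · exact ckPerm_sound _ _ _ _ (allR_zero _ _ pk14 i hi)
  · exact ckPerm_sound _ _ _ _ (allR_zero _ _ pk15 i hi)
  · exact ckPerm_sound _ _ _ _ (allR_zero _ _ pk16 i hi)
  · exact ckPerm_sound _ _ _ _ (allR_zero _ _ pk17 i hi)
  · exact ckPerm_sound _ _ _ _ (allR_zero _ _ pk18 i hi)
  · exact ckPerm_sound _ _ _ _ (allR_zero _ _ pk19 i hi)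
  · exact ckPerm_sound _ _ _ _ (allR_zero _ _ pk20 i hi)
  · exact ckPerm_sound _ _ _ _ (allR_zero _ _ pk21 i hi)
  · exact ckPerm_sound _ _ _ _ (allR_zero _ _ pk22 i hi)
  · exact ckPerm_sound _ _ _ _ (allR_zero _ _ pk23 i hi)
  · exact ckPerm_sound _ _ _ _ (allR_zero _ _ pk24 i hi)
  · exact ckPerm_sound _ _ _ _ (allR_zero _ _ pk25 i hi)
  · exact ckPerm_sound _ _ _ _ (allR_zero _ _ pk26 i hi)
  · exact ckPerm_sound _ _ _ _ (allR_zero _ _ pk27 i hi)
  · exact ckPerm_sound _ _ _ _ (allR_zero _ _ pk28 i hi)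
  · exact ckPerm_sound _ _ _ _ (allR_zero _ _ pk29 i hi)
  · exact ckPerm_sound _ _ _ _ (allR_zero _ _ pk30 i hi)
  · exact ckPerm_sound _ _ _ _ (allR_zero _ _ pk31 i hi)
  · exact ckPerm_sound _ _ _ _ (allR_zero _ _ pk32 i hi)
  · exact ckPerm_sound _ _ _ _ (allR_zero _ _ pk33 i hi)

theorem tok : TableOK 2058 41 T' inv' :=
  OT.tableOK_ext Cfsg.Agent.H8.Het.tok (by decide) hTT hii h1 h2

theorem hwb : ∀ i < bws.length, (∀ l ∈ bws.getD i [], l < 7 + 2 * i) ∧ inv' (7 + 2 * i) = 7 + 2 * i + 1 ∧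
    ∀ j < 2058, trN T' (bws.getD i []) j = T' (7 + 2 * i) j := by
  intro i hi
  have hl : bws.length = 17 := by decide
  rw [hl] at hi
  interval_cases i
  · exact ⟨by decide, by decide, fun j hj => OT.ckEqW_sound (T := T') [4, 0, 1, 4, 6, 1, 5, 0, 6, 1, 0, 1] [7] j (allR_zero _ _ wk0 j hj)⟩
  · exact ⟨by decide, by decide, fun j hj => OT.ckEqW_sound (T := T') [3, 1, 0, 5, 4, 5, 3, 4, 1, 3, 5] [9] j (allR_zero _ _ wk1 j hj)⟩
  · exact ⟨by decide, by decide, fun j hj => OT.ckEqW_sound (T := T') [6, 4, 2] [11] j (allR_zero _ _ wk2 j hj)⟩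
  · exact ⟨by decide, by decide, fun j hj => OT.ckEqW_sound (T := T') [1, 2, 1, 3, 0, 1, 2, 3, 2, 1, 6, 3, 5, 1, 2, 3, 1, 2, 0, 1] [13] j (allR_zero _ _ wk3 j hj)⟩
  · exact ⟨by decide, by decide, fun j hj => OT.ckEqW_sound (T := T') [10, 10, 12, 14, 7, 9, 9, 13, 12] [15] j (allR_zero _ _ wk4 j hj)⟩
  · exact ⟨by decide, by decide, fun j hj => OT.ckEqW_sound (T := T') [8, 11, 13, 7, 14, 14, 12, 8, 8, 14, 14, 14, 12, 8, 12, 8] [17] j (allR_zero _ _ wk5 j hj)⟩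
  · exact ⟨by decide, by decide, fun j hj => OT.ckEqW_sound (T := T') [16, 17, 17, 15, 15, 18, 18, 16, 16, 18, 18, 18, 15, 18, 16, 18, 18, 15, 18, 16, 17, 16, 18, 18] [19] j (allR_zero _ _ wk6 j hj)⟩
  · exact ⟨by decide, by decide, fun j hj => OT.ckEqW_sound (T := T') [15] [21] j (allR_zero _ _ wk7 j hj)⟩
  · exact ⟨by decide, by decide, fun j hj => OT.ckEqW_sound (T := T') [18, 18, 18, 15, 17, 15, 18, 16, 17, 16, 17] [23] j (allR_zero _ _ wk8 j hj)⟩
  · exact ⟨by decide, by decide, fun j hj => OT.ckEqW_sound (T := T') [22, 24, 24] [25] j (allR_zero _ _ wk9 j hj)⟩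
  · exact ⟨by decide, by decide, fun j hj => OT.ckEqW_sound (T := T') [19] [27] j (allR_zero _ _ wk10 j hj)⟩
  · exact ⟨by decide, by decide, fun j hj => OT.ckEqW_sound (T := T') [27, 26, 26, 27] [29] j (allR_zero _ _ wk11 j hj)⟩
  · exact ⟨by decide, by decide, fun j hj => OT.ckEqW_sound (T := T') [25] [31] j (allR_zero _ _ wk12 j hj)⟩
  · exact ⟨by decide, by decide, fun j hj => OT.ckEqW_sound (T := T') [30] [33] j (allR_zero _ _ wk13 j hj)⟩
  · exact ⟨by decide, by decide, fun j hj => OT.ckEqW_sound (T := T') [3] [35] j (allR_zero _ _ wk14 j hj)⟩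
  · exact ⟨by decide, by decide, fun j hj => OT.ckEqW_sound (T := T') [33, 31, 17, 17, 11, 13, 13, 11, 14, 14, 11, 1, 6, 3, 2, 1, 3, 6] [37] j (allR_zero _ _ wk15 j hj)⟩
  · exact ⟨by decide, by decide, fun j hj => OT.ckEqW_sound (T := T') [31, 27, 23, 17, 15, 17, 17, 15, 14, 7, 14, 11, 13, 13, 6, 3, 2, 1, 4, 5] [39] j (allR_zero _ _ wk16 j hj)⟩

end Cfsg.Agent.H8.HeC
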